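import Cfsg.Agent.S2117
import Cfsg.Agent.S3958
import Cfsg.Agent.Lib.Helper44.LawBounds
import Cfsg.Agent.Lib.Helper6.SLCard

set_option autoImplicit false

/-!
The Schur multiplier of `PSL_n(q)` from the triviality of that of `SL_n(q)`; `PSL₂(q)`.
-/

namespace Cfsg.Agent.Lib.Helper85

namespace SL2Cover

open Matrix Cfsg

universe u v

theorem stem_congr {Γ : Type*} {Q Q' : Type*} [Group Γ] [Group Q] [Group Q'] (e : Q ≃* Q') (σ : Γ →* Q) :
    (e.toMonoidHom.comp σ).ker = σ.ker := by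
  ext x
  simp [MonoidHom.mem_ker]

theorem isStem_congr {Γ : Type*} {Q Q' : Type*} [Group Γ] [Group Q] [Group Q'] (e : Q ≃* Q') (σ : Γ →* Q)
    (hσ : IsStemExtension σ) : IsStemExtension (e.toMonoidHom.comp σ) := by
  refine ⟨e.surjective.comp hσ.1, ?_, ?_⟩
  · rw [stem_congr]; exact hσ.2.1
  · rw [stem_congr]; exact hσ.2.2

/-- transport of the Schur multiplier along an isomorphism -/
theorem hsm_congr {Q Q' : Type u} [Group Q] [Group Q'] {A : Type v} [CommGroup A] (e : Q ≃* Q')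
    (h : HasSchurMultiplier Q A) : HasSchurMultiplier Q' A := by
  obtain ⟨⟨Γ, i1, i2, σ, hσ, ⟨e'⟩⟩, h2⟩ := h
  refine ⟨⟨Γ, i1, i2, e.toMonoidHom.comp σ, isStem_congr e σ hσ,
    ⟨(MulEquiv.subgroupCongr (stem_congr e σ)).trans e'⟩⟩, ?_⟩
  intro Γ' _ _ τ hτ
  obtain ⟨π, hπ⟩ := h2 Γ' (e.symm.toMonoidHom.comp τ) (isStem_congr e.symm τ hτ)
  exact ⟨(MulEquiv.subgroupCongr (stem_congr e.symm τ)).toMonoidHom.comp π,
    (MulEquiv.subgroupCongr (stem_congr e.symm τ)).surjective.comp hπ⟩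

theorem psl_multiplier_of_sl {F : Type u} [Field F] [Fintype F] (n : ℕ) (hn : 1 ≤ n)
    (hperf : commutator (SpecialLinearGroup (Fin n) F) = ⊤)
    (hM : HasCyclicSchurMultiplier (SpecialLinearGroup (Fin n) F) 1) :
    HasCyclicSchurMultiplier (ProjectiveSpecialLinearGroup (Fin n) F)
      (Nat.gcd n (Fintype.card F - 1)) := by
  have hσ : IsStemExtension
      (QuotientGroup.mk' (Subgroup.center (SpecialLinearGroup (Fin n) F))) := by
    refine ⟨QuotientGroup.mk'_surjective _, ?_, ?_⟩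
    · rw [QuotientGroup.ker_mk']
    · rw [hperf]; exact le_top
  have hcyc : IsCyclic (Subgroup.center (SpecialLinearGroup (Fin n) F)) :=
    isCyclic_of_surjective
      (Matrix.SpecialLinearGroup.center_equiv_rootsOfUnity (n := Fin n) (R := F)).symm
      (MulEquiv.surjective _)
  have hcard : Nat.card (Subgroup.center (SpecialLinearGroup (Fin n) F)) =
      Nat.card (Multiplicative (ZMod (Nat.gcd n (Fintype.card F - 1)))) := by
    rw [Cfsg.Agent.Lib.Helper6.card_center_SL_field n hn,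
      Nat.card_congr (Multiplicative.toAdd (α := ZMod (Nat.gcd n (Fintype.card F - 1)))), Nat.card_zmod]
  have e1 : (QuotientGroup.mk' (Subgroup.center (SpecialLinearGroup (Fin n) F))).ker ≃*
      Multiplicative (ZMod (Nat.gcd n (Fintype.card F - 1))) :=
    (MulEquiv.subgroupCongr (QuotientGroup.ker_mk' _)).trans (mulEquivOfCyclicCardEq hcard)
  refine ⟨⟨SpecialLinearGroup (Fin n) F, inferInstance, inferInstance, _, hσ, ⟨e1⟩⟩, ?_⟩
  intro Δ _ _ τ hτ
  obtain ⟨π, hπ⟩ := Cfsg.Agent.S3958.result _ hσ hM Δ τ hτ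
  exact ⟨π.comp e1.symm.toMonoidHom, hπ.comp e1.symm.surjective⟩

theorem psl2_multiplier {F : Type u} [Field F] [Fintype F] (h3 : 3 < Fintype.card F)
    (h4 : Fintype.card F ≠ 4) (h9 : Fintype.card F ≠ 9) :
    HasCyclicSchurMultiplier (ProjectiveSpecialLinearGroup (Fin 2) F)
      (Nat.gcd 2 (Fintype.card F - 1)) :=
  psl_multiplier_of_sl 2 (by norm_num) (Cfsg.Agent.Lib.Helper44.sl2_perfect F h3)
    (Cfsg.Agent.S2117.result h4 h9)

end SL2Cover

end Cfsg.Agent.Lib.Helper85
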